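import Mathlib

/-!
A linear programming contradiction for five integer columns of a character table.
-/

set_option autoImplicit false
set_option synthInstance.maxSize 100000

namespace Cfsg.Agent.A9

def Rg (k : ℕ) : List ℤ := (List.range (2 * k + 1)).map fun i : ℕ => (i : ℤ) - k

theorem mem_Rg {k : ℕ} {x : ℤ} (h : x ^ 2 < (k + 1) ^ 2) : x ∈ Rg k := by
  obtain ⟨h1, h2⟩ := abs_lt_of_sq_lt_sq' h (by positivity)
  exact List.mem_map.2 ⟨(x + k).toNat, List.mem_range.2 (by omega), by omega⟩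

def Pq (l : List ℤ) (A B C Y Z : ℤ) : ℤ :=
  l.getD 0 0 * (A * A) + l.getD 1 0 * (A * B) + l.getD 2 0 * (A * C) + l.getD 3 0 * (A * Y) +
  l.getD 4 0 * (A * Z) + l.getD 5 0 * (B * B) + l.getD 6 0 * (B * C) + l.getD 7 0 * (B * Y) +
  l.getD 8 0 * (B * Z) + l.getD 9 0 * (C * C) + l.getD 10 0 * (C * Y) + l.getD 11 0 * (C * Z) +
  l.getD 12 0 * (Y * Y) + l.getD 13 0 * (Y * Z) + l.getD 14 0 * (Z * Z)

def Qc (m : List ℤ) (A B C : ℤ) : ℤ :=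
  m.getD 0 0 * (A * A * B) + m.getD 1 0 * (A * C * A) + m.getD 2 0 * (B * B * A) +
  m.getD 3 0 * (A * C * B) + m.getD 4 0 * (C * C * A) + m.getD 5 0 * (B * C * B) +
  m.getD 6 0 * (C * C * B)

def Gr (l : List ℤ) : ℤ :=
  l.getD 0 0 * 108 + l.getD 5 0 * 54 + l.getD 9 0 * 81 + l.getD 12 0 * 9 + l.getD 14 0 * 9

def Nv (m : List ℤ) : ℤ :=
  m.getD 0 0 * 23328 + m.getD 2 0 * 11664 + m.getD 3 0 * 17496 + m.getD 4 0 * 26244 +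
  m.getD 5 0 * 17496 + m.getD 6 0 * 249318

def l1 : List ℤ := [235, 387, 227, -342, -577, 482, 497, 162, -72, 91, 299, 65, 1588, 1918, 884]

def m1' : List ℤ := [6417, 9164, 11145, 30000, 9849, 8440, 9417]

def certs : List (ℤ × List ℤ × List ℤ) :=
  [(10, [0, 0, 0, 2, 2, 0, 0, 2, 2, 0, 2, 2, -1, -10, -1], []),
   (91, [1, -2, -3, 2, 2, 1, -4, -18, -18, -1, -8, -8, -10, -21, -10],
     [-5, 11, 11, 100, 26, 11, -11]),
   (172, [0, 0, 5, -9, 3, 1, 1, -4, 4, -4, -11, -15, 31, 4, -3], []),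
   (253, [0, 8, 23, 6, 6, 12, 20, 26, 26, -11, 30, 30, 6, 14, 6], []),
   (334, [0, 0, 2, 2, 2, 1, 0, -6, 4, -2, -3, -9, 11, 2, -1], []),
   (415, [0, 0, 5, 25, 5, 0, 2, 5, -24, -2, 1, 11, 9, -30, -4], []),
   (496, [1, 3, 23, 23, 23, 26, 24, 8, 8, -21, -21, -21, -13, -195, -13],
     [118, 23, 143, 300, 23, 8, -268]),
   (577, [0, 0, 2, -7, 2, 1, 0, -8, 10, -2, 2, 2, -1, 2, -1], [])]

abbrev Lv (A B C Y Z : ℤ) : ℤ := 6 * A + 12 * B + 26 * C + 18 * Y + 18 * Z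

abbrev Row (A B C Y Z d : ℤ) : Prop :=
  0 < d → 0 ≤ d + 4 * A + 4 * B → 0 ≤ d + 6 * B + 2 * C + 18 * Y →
    0 ≤ d + 6 * B + 2 * C + 18 * Z → 0 ≤ Pq l1 A B C Y Z * d + Qc m1' A B C ∧
    ∀ c ∈ certs, d ^ 2 < 648 * c.1 → d ∣ 6 * c.1 * A → d ∣ 12 * c.1 * B → d ∣ 8 * c.1 * C →
      d ∣ 72 * c.1 * Y → d ∣ 72 * c.1 * Z → 0 ≤ Pq c.2.1 A B C Y Z * d + Qc c.2.2 A B C

theorem check : ∀ Y ∈ Rg 3, ∀ Z ∈ Rg 3, 3 ∣ Y - Z → ∀ A ∈ Rg 10, 3 ∣ A - Y → ∀ B ∈ Rg 7,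
    3 ∣ B - Y → ∀ C ∈ Rg 9, 3 ∣ C - Y →
    (3 * A * A + 6 * B * B + 4 * C * C + 36 * Y * Y + 36 * Z * Z) ^ 2 +
      (3 * A + 6 * B + 4 * C + 36 * Y + 36 * Z) ^ 2 ≤
      324 * (3 * A * A + 6 * B * B + 4 * C * C + 36 * Y * Y + 36 * Z * Z) →
    9 ∣ 4 * A + 4 * B - Lv A B C Y Z → 27 ∣ 6 * B + 2 * C + 18 * Y - Lv A B C Y Z →
    27 ∣ 6 * B + 2 * C + 18 * Z - Lv A B C Y Z →
    (Lv A B C Y Z ≤ 300 ∧ 0 ≤ Pq l1 A B C Y Z ∧
      0 ≤ Pq l1 A B C Y Z * (81 * 14 - Lv A B C Y Z) + Qc m1' A B C) ∧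
    ∀ k ∈ List.range 14, Row A B C Y Z (81 * k - Lv A B C Y Z) := by decide +kernel

structure Tab {ι : Type*} [Fintype ι] (A B C Y Z d : ι → ℤ) (o : ι) (q : ℕ) : Prop where
  one : A o = 1 ∧ B o = 1 ∧ C o = 1 ∧ Y o = 1 ∧ Z o = 1 ∧ d o = 1
  pos : ∀ i, 0 < d i
  g1 : ∑ i, A i * A i = 108 ∧ ∑ i, B i * B i = 54 ∧ ∑ i, C i * C i = 81 ∧ ∑ i, Y i * Y i = 9 ∧
    ∑ i, Z i * Z i = 9 ∧ ∑ i, d i ^ 2 = 648 * q
  g2 : ∑ i, A i * B i = 0 ∧ ∑ i, A i * C i = 0 ∧ ∑ i, A i * Y i = 0 ∧ ∑ i, A i * Z i = 0 ∧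
    ∑ i, B i * C i = 0 ∧ ∑ i, B i * Y i = 0 ∧ ∑ i, B i * Z i = 0 ∧ ∑ i, C i * Y i = 0 ∧
    ∑ i, C i * Z i = 0 ∧ ∑ i, Y i * Z i = 0
  g3 : ∑ i, d i * A i = 0 ∧ ∑ i, d i * B i = 0 ∧ ∑ i, d i * C i = 0 ∧ ∑ i, d i * Y i = 0 ∧
    ∑ i, d i * Z i = 0
  cub : (23328 : ℚ) = 648 * q * ∑ i, (A i * A i * B i : ℚ) / d i ∧
    (0 : ℚ) = 648 * q * ∑ i, (A i * C i * A i : ℚ) / d i ∧
    (11664 : ℚ) = 648 * q * ∑ i, (B i * B i * A i : ℚ) / d i ∧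
    (17496 : ℚ) = 648 * q * ∑ i, (A i * C i * B i : ℚ) / d i ∧
    (26244 : ℚ) = 648 * q * ∑ i, (C i * C i * A i : ℚ) / d i ∧
    (17496 : ℚ) = 648 * q * ∑ i, (B i * C i * B i : ℚ) / d i ∧
    (249318 : ℚ) = 648 * q * ∑ i, (C i * C i * B i : ℚ) / d i
  cg : ∀ i, 3 ∣ d i - A i ∧ 3 ∣ d i - B i ∧ 3 ∣ d i - C i ∧ 3 ∣ C i - Y i ∧ 3 ∣ C i - Z i
  sub : ∀ i, (∃ n : ℕ, d i + 4 * A i + 4 * B i = 9 * n) ∧
    (∃ n : ℕ, d i + 6 * B i + 2 * C i + 18 * Y i = 27 * n) ∧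
    (∃ n : ℕ, d i + 6 * B i + 2 * C i + 18 * Z i = 27 * n) ∧
    ∃ n : ℕ, d i + Lv (A i) (B i) (C i) (Y i) (Z i) = 81 * n
  dv : ∀ i, d i ∣ 6 * q * A i ∧ d i ∣ 12 * q * B i ∧ d i ∣ 8 * q * C i ∧ d i ∣ 72 * q * Y i ∧
    d i ∣ 72 * q * Z i

theorem sq_add_sq_le {ι : Type*} [Fintype ι] (f : ι → ℤ) {i j : ι} (h : i ≠ j) :
    f i ^ 2 + f j ^ 2 ≤ ∑ k, f k ^ 2 := by
  classical
  rw [← Finset.sum_pair (f := fun k => f k ^ 2) h]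
  exact Finset.sum_le_sum_of_subset_of_nonneg (Finset.subset_univ _) fun _ _ _ => sq_nonneg _

theorem row0 {a b c y z δ q : ℤ} {n1 n2 n3 n : ℕ}
    (e1 : (3 * a * a + 6 * b * b + 4 * c * c + 36 * y * y + 36 * z * z) ^ 2 +
      (3 * a + 6 * b + 4 * c + 36 * y + 36 * z) ^ 2 ≤
      324 * (3 * a * a + 6 * b * b + 4 * c * c + 36 * y * y + 36 * z * z))
    (e2 : δ ^ 2 + 1 ^ 2 ≤ 648 * q) (c1 : 3 ∣ δ - a) (c2 : 3 ∣ δ - b) (c3 : 3 ∣ δ - c)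
    (c4 : 3 ∣ c - y) (c5 : 3 ∣ c - z) (s1 : δ + 4 * a + 4 * b = 9 * n1)
    (s2 : δ + 6 * b + 2 * c + 18 * y = 27 * n2) (s3 : δ + 6 * b + 2 * c + 18 * z = 27 * n3)
    (s4 : δ + Lv a b c y z = 81 * n) (hd : δ ∣ 6 * q * a ∧ δ ∣ 12 * q * b ∧ δ ∣ 8 * q * c ∧
      δ ∣ 72 * q * y ∧ δ ∣ 72 * q * z) (hp : 0 < δ) :
    0 ≤ Pq l1 a b c y z * δ + Qc m1' a b c ∧ ∀ r ∈ certs, r.1 = q →
      0 ≤ Pq r.2.1 a b c y z * δ + Qc r.2.2 a b c := by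
  have e3 : 3 * a * a + 6 * b * b + 4 * c * c + 36 * y * y + 36 * z * z ≤ 324 := by
    by_contra e
    nlinarith [sq_nonneg (3 * a + 6 * b + 4 * c + 36 * y + 36 * z)]
  have := mul_self_nonneg a
  have := mul_self_nonneg b
  have := mul_self_nonneg c
  have := mul_self_nonneg y
  have := mul_self_nonneg z
  obtain ⟨⟨k1, k2, k3⟩, k4⟩ := check y (mem_Rg (by push_cast; linarith)) z
    (mem_Rg (by push_cast; linarith)) (by omega) a (mem_Rg (by push_cast; linarith)) (by omega)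
    b (mem_Rg (by push_cast; linarith)) (by omega) c (mem_Rg (by push_cast; linarith)) (by omega)
    e1 ⟨n1 - 9 * n, by linear_combination s1 - s4⟩ ⟨n2 - 3 * n, by linear_combination s2 - s4⟩
    ⟨n3 - 3 * n, by linear_combination s3 - s4⟩
  obtain rfl : δ = 81 * n - Lv a b c y z := by linarith
  by_cases hn : n < 14
  · obtain ⟨k5, k6⟩ := k4 n (List.mem_range.2 hn) hp (by rw [s1]; positivity)
      (by rw [s2]; positivity) (by rw [s3]; positivity)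
    exact ⟨k5, fun c hc e => k6 c hc (by rw [e]; linarith) (e ▸ hd.1) (e ▸ hd.2.1) (e ▸ hd.2.2.1)
      (e ▸ hd.2.2.2.1) (e ▸ hd.2.2.2.2)⟩
  · have hn' : (14 : ℤ) ≤ n := by exact_mod_cast not_lt.1 hn
    refine ⟨by nlinarith [mul_nonneg k2 (sub_nonneg.2 hn')], fun r hr e => ?_⟩
    have := (by decide : ∀ c ∈ certs, c.1 ≤ 577) r hr
    have e4 : 834 ≤ 81 * n - Lv a b c y z := by linarith
    nlinarith [pow_le_pow_left₀ (by norm_num) e4 2]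

namespace Tab
variable {ι : Type*} [Fintype ι] {A B C Y Z d : ι → ℤ} {o : ι} {q : ℕ} (h : Tab A B C Y Z d o q)
include h

theorem sumP (l : List ℤ) : ∑ i, Pq l (A i) (B i) (C i) (Y i) (Z i) = Gr l := by
  obtain ⟨h1, h2, h3, h4, h5, -⟩ := h.g1
  obtain ⟨k1, k2, k3, k4, k5, k6, k7, k8, k9, k10⟩ := h.g2
  simp only [Pq, Finset.sum_add_distrib, ← Finset.mul_sum, h1, h2, h3, h4, h5, k1, k2, k3, k4, k5,
    k6, k7, k8, k9, k10, Gr]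
  ring

theorem sumQ (m : List ℤ) : 648 * q * ∑ i, (Qc m (A i) (B i) (C i) : ℚ) / d i = Nv m := by
  obtain ⟨k1, k2, k3, k4, k5, k6, k7⟩ := h.cub
  simp only [Qc, Int.cast_add, Int.cast_mul, add_div, mul_div_assoc (_ : ℚ) (_ * _ * _),
    Finset.sum_add_distrib, ← Finset.mul_sum, Nv, mul_add, mul_left_comm (648 * q : ℚ), ← k1, ← k2,
    ← k3, ← k4, ← k5, ← k6, ← k7]
  push_cast
  ring

theorem lp (l m : List ℤ) (e : ∀ i ≠ o, 0 ≤ Pq l (A i) (B i) (C i) (Y i) (Z i) * d i +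
    Qc m (A i) (B i) (C i)) : 648 * q * (Pq l 1 1 1 1 1 + Qc m 1 1 1 - Gr l) ≤ Nv m := by
  classical
  obtain ⟨h1, h2, h3, h4, h5, h6⟩ := h.one
  have := Finset.single_le_sum (s := Finset.univ) (f := fun i =>
    (Pq l (A i) (B i) (C i) (Y i) (Z i) : ℚ) + (Qc m (A i) (B i) (C i) : ℚ) / d i +
      if i = o then |(Pq l 1 1 1 1 1 + Qc m 1 1 1 : ℚ)| else 0) (fun i _ => by
      split_ifs with hi
      · rw [hi, h1, h2, h3, h4, h5, h6, Int.cast_one, div_one]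
        exact neg_le_iff_add_nonneg'.1 (neg_le_abs _)
      · have hd : (0 : ℚ) < d i := by exact_mod_cast h.pos i
        rw [add_zero, add_div' _ _ _ hd.ne']
        exact div_nonneg (by exact_mod_cast e i hi) hd.le) (Finset.mem_univ o)
  simp only [Finset.sum_add_distrib, Finset.sum_ite_eq', Finset.mem_univ, if_true, h1, h2, h3, h4,
    h5, h6, Int.cast_one, div_one, add_le_add_iff_right, ← Int.cast_sum, h.sumP] at this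
  have h7 := mul_le_mul_of_nonneg_left this (show (0 : ℚ) ≤ 648 * q by positivity)
  rw [mul_add _ (Gr l : ℚ), h.sumQ] at h7
  have : (648 * q * (Pq l 1 1 1 1 1 + Qc m 1 1 1 - Gr l) : ℚ) ≤ Nv m := by linarith
  exact_mod_cast this

theorem row {i : ι} (hi : i ≠ o) : 0 ≤ Pq l1 (A i) (B i) (C i) (Y i) (Z i) * d i +
    Qc m1' (A i) (B i) (C i) ∧ ∀ c ∈ certs, c.1 = q →
      0 ≤ Pq c.2.1 (A i) (B i) (C i) (Y i) (Z i) * d i + Qc c.2.2 (A i) (B i) (C i) := by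
  obtain ⟨h1, h2, h3, h4, h5, h6⟩ := h.one
  have e1 := sq_add_sq_le
    (fun j => 3 * A i * A j + 6 * B i * B j + 4 * C i * C j + 36 * Y i * Y j + 36 * Z i * Z j) hi
  have e2 := sq_add_sq_le d hi
  rw [h.g1.2.2.2.2.2, h6] at e2
  obtain ⟨c1, c2, c3, c4, c5⟩ := h.cg i
  obtain ⟨⟨n1, s1⟩, ⟨n2, s2⟩, ⟨n3, s3⟩, ⟨n, s4⟩⟩ := h.sub i
  have hd := h.dv i
  have hp := h.pos i
  rw [Finset.sum_congr rfl (g := fun j => Pq [9 * A i * A i, 36 * A i * B i, 24 * A i * C i,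
    216 * A i * Y i, 216 * A i * Z i, 36 * B i * B i, 48 * B i * C i, 432 * B i * Y i,
    432 * B i * Z i, 16 * C i * C i, 288 * C i * Y i, 288 * C i * Z i, 1296 * Y i * Y i,
    2592 * Y i * Z i, 1296 * Z i * Z i] (A j) (B j) (C j) (Y j) (Z j))
    (fun j _ => by simp [Pq]; ring), h.sumP] at e1
  simp only [Gr, List.getD_cons_succ, List.getD_cons_zero, h1, h2, h3, h4, h5, mul_one] at e1
  exact row0 (by linarith) e2 c1 c2 c3 c4 c5 s1 s2 s3 s4 hd hp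

theorem false : False := by
  have e1 := h.lp l1 m1' fun i hi => (h.row hi).1
  rw [show Pq l1 1 1 1 1 1 + Qc m1' 1 1 1 - Gr l1 = 9249 by decide,
    show Nv m1' = 3558542058 by decide] at e1
  have e2 : (81 : ℤ) ^ 2 ∣ 648 * q + 72252 := by
    obtain ⟨k1, k2, k3, k4, k5⟩ := h.g3
    have := Finset.dvd_sum (s := Finset.univ) fun i _ =>
      pow_dvd_pow_of_dvd (Dvd.intro _ (h.sub i).2.2.2.choose_spec.symm) 2
    rw [Finset.sum_congr rfl (g := fun j => d j ^ 2 + 12 * (d j * A j) + 24 * (d j * B j) +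
      52 * (d j * C j) + 36 * (d j * Y j) + 36 * (d j * Z j) + Pq [36, 144, 312, 216, 216, 144, 624,
        432, 432, 676, 936, 936, 324, 648, 324] (A j) (B j) (C j) (Y j) (Z j))
      (fun j _ => by simp [Pq]; ring)] at this
    simpa [Finset.sum_add_distrib, ← Finset.mul_sum, k1, k2, k3, k4, k5, h.sumP, h.g1.2.2.2.2.2,
      Gr] using this
  have e5 : q < 658 ∧ q = 10 + 81 * (q / 81) := by
    have : (q : ℤ) < 658 := by linarith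
    obtain ⟨t, ht⟩ := e2
    have : (8 * q + 892 : ℤ) = 81 * t := by linarith
    clear ht e1
    omega
  obtain ⟨c, hc, e, e3⟩ := (by decide : ∀ n ∈ List.range 8, ∃ c ∈ certs, c.1 = 10 + 81 * (n : ℤ) ∧
    Nv c.2.2 < 648 * c.1 * (Pq c.2.1 1 1 1 1 1 + Qc c.2.2 1 1 1 - Gr c.2.1)) (q / 81)
    (List.mem_range.2 (by clear e1 e2; omega))
  have e4 : c.1 = q := by clear e1 e2 e3; omega
  exact absurd (h.lp _ _ fun i hi => (h.row hi).2 c hc e4) (by rw [← e4]; exact not_le.2 e3)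

end Tab

end Cfsg.Agent.A9
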